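import Mathlib
import Cfsg.Agent.Lib.Helper51.Zass.Defs

/-!
# S0690 (ZASS), package [FIN-C1]: in a perfect f.p.f. group in which `N3 G` is a plane,
`N3 G = ⊤`.

Route (uses [FIN-A] as a hypothesis): `N := N3 G` is normal of order 120; let `Q` be a Sylow
5-subgroup of `N`.  By Frattini `G = N_G(Q) N`.  `C_G(Q)` has no perfect subgroup `≠ 1` (such a
subgroup would contain an element of order 3 by [FIN-A]; it lies in `N` and commutes with an
element of order 5 of `N`, impossible in a central extension of `A₅` by a group of order 2), so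
`C_G(Q)` is solvable, `N_G(Q)` is solvable (`N_G(Q)/C_G(Q)` embeds in the abelian `Aut(Q)`), and
`G/N` is solvable and perfect, hence trivial.
-/

set_option autoImplicit false

namespace Cfsg.Agent.Lib.Helper20.Zass

open Cfsg.Agent.Lib.Helper51.Zass

universe u

set_option maxRecDepth 100000 in
theorem perm5_exp : ∀ g : Equiv.Perm (Fin 5), g ^ 15 = 1 → g ^ 3 = 1 ∨ g ^ 5 = 1 := by decide

/-- commuting elements of orders dividing 3 and 5 in `A₅`: one of them is trivial. -/
theorem alt5_comm35 (x y : alternatingGroup (Fin 5)) (hx : x ^ 3 = 1) (hy : y ^ 5 = 1)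
    (hc : x * y = y * x) : x = 1 ∨ y = 1 := by
  have hcomm : Commute x y := hc
  have h15 : (x * y) ^ 15 = 1 := by
    rw [hcomm.mul_pow]
    have h1 : x ^ 15 = 1 := by
      calc x ^ 15 = (x ^ 3) ^ 5 := by rw [← pow_mul]
        _ = 1 := by rw [hx, one_pow]
    have h2 : y ^ 15 = 1 := by
      calc y ^ 15 = (y ^ 5) ^ 3 := by rw [← pow_mul]
        _ = 1 := by rw [hy, one_pow]
    rw [h1, h2, one_mul]
  have h15' : ((x * y : alternatingGroup (Fin 5)) : Equiv.Perm (Fin 5)) ^ 15 = 1 := by
    have := congrArg (fun t : alternatingGroup (Fin 5) => (t : Equiv.Perm (Fin 5))) h15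
    simpa using this
  rcases perm5_exp _ h15' with h | h
  · -- `(x y)^3 = 1`, so `y^3 = 1`, so `y = 1`
    right
    have h3 : (x * y) ^ 3 = 1 := by
      apply Subtype.ext
      simpa using h
    rw [hcomm.mul_pow, hx, one_mul] at h3
    calc y = (y ^ 3) ^ 2 * (y ^ 5)⁻¹ := by group
      _ = 1 := by rw [h3, hy]; simp
  · left
    have h5 : (x * y) ^ 5 = 1 := by
      apply Subtype.ext
      simpa using h
    rw [hcomm.mul_pow, hy, mul_one] at h5
    calc x = (x ^ 3) ^ 2 * (x ^ 5)⁻¹ := by group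
      _ = 1 := by rw [hx, h5]; simp

/-- a finite group without nontrivial perfect subgroups is solvable. -/
theorem isSolvable_of_no_perfect {X : Type u} [Group X] [Finite X]
    (h : ∀ K : Subgroup X, ⁅K, K⁆ = K → K = ⊥) : Group.IsSolvable X := by
  classical
  have hex : ∃ m, ∃ k, Nat.card (derivedSeries X k) = m := ⟨_, 0, rfl⟩
  obtain ⟨k, hk⟩ := Nat.find_spec hex
  have hmin : ∀ k', Nat.find hex ≤ Nat.card (derivedSeries X k') :=
    fun k' => Nat.find_min' hex ⟨k', rfl⟩
  have hle : derivedSeries X (k + 1) ≤ derivedSeries X k := derivedSeries_antitone X (Nat.le_succ k)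
  have heq : derivedSeries X (k + 1) = derivedSeries X k :=
    Subgroup.eq_of_le_of_card_ge hle (by rw [hk]; exact hmin (k + 1))
  have hperf : ⁅derivedSeries X k, derivedSeries X k⁆ = derivedSeries X k := by
    rw [← derivedSeries_succ]
    exact heq
  exact ⟨⟨k, h _ hperf⟩⟩

theorem isFpfLin_subgroup {G : Type u} [Group G] (hG : IsFpfLin G) (K : Subgroup G) :
    IsFpfLin K := by
  obtain ⟨p, hp, V, i1, i2, i3, i4, ρ, hρ⟩ := hG
  refine ⟨p, hp, V, i1, i2, i3, i4, ρ.comp K.subtype, ?_⟩
  intro g hg v hv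
  exact hρ (g : G) (fun h => hg (Subtype.ext (by simpa using h))) v hv

theorem n3_normal (G : Type u) [Group G] : (N3 G).Normal := by
  have h : N3 G = Subgroup.normalClosure {g : G | orderOf g = 3} := by
    unfold N3
    apply le_antisymm
    · exact Subgroup.closure_le_normalClosure
    · unfold Subgroup.normalClosure
      apply Subgroup.closure_mono
      intro x hx
      rw [Group.mem_conjugatesOfSet_iff] at hx
      obtain ⟨a, ha, hconj⟩ := hx
      rw [isConj_iff] at hconj
      obtain ⟨c, rfl⟩ := hconj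
      have hs : SemiconjBy c a (c * a * c⁻¹) := by
        unfold SemiconjBy
        group
      show orderOf (c * a * c⁻¹) = 3
      rw [← hs.orderOf_eq]
      exact ha
  rw [h]
  exact Subgroup.normalClosure_normal

theorem perfect_of_commutator_eq {X : Type u} [Group X] (K : Subgroup X) (hK : ⁅K, K⁆ = K) :
    commutator K = ⊤ := by
  apply Subgroup.map_injective K.subtype_injective
  rw [Subgroup.map_subtype_commutator, hK, ← MonoidHom.range_eq_map, Subgroup.range_subtype]

theorem card_of_isPlane {G : Type u} [Group G] [Finite G] (H : Subgroup G) (hH : IsPlane H) :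
    Nat.card H = 120 := by
  obtain ⟨f, hf, hker⟩ := hH
  have h1 := Subgroup.card_eq_card_quotient_mul_card_subgroup f.ker
  have h2 : Nat.card (↥H ⧸ f.ker) = Nat.card (alternatingGroup (Fin 5)) :=
    Nat.card_congr (QuotientGroup.quotientKerEquivOfSurjective f hf).toEquiv
  have h3 : Nat.card (alternatingGroup (Fin 5)) = 60 := by
    have := two_mul_nat_card_alternatingGroup (α := Fin 5)
    rw [Nat.card_perm, Nat.card_fin] at this
    have h5 : Nat.factorial 5 = 120 := by decide
    omega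
  rw [h1, h2, h3, hker]

/-- [FIN-C1] -/
theorem pkgFinC1 (hFinA : PkgFinA.{u}) :
    ∀ (G : Type u) [Group G] [Finite G], IsFpfLin G → commutator G = ⊤ → IsPlane (N3 G) →
      N3 G = ⊤ := by
  intro G _ _ hfpf hperf hplane
  haveI hNn : (N3 G).Normal := n3_normal G
  have hcardN : Nat.card (N3 G) = 120 := card_of_isPlane _ hplane
  obtain ⟨f, hf, hker⟩ := hplane
  haveI : Fact (Nat.Prime 5) := ⟨by norm_num⟩
  -- a Sylow 5-subgroup of `N3 G`
  obtain ⟨P5⟩ : Nonempty (Sylow 5 ↥(N3 G)) := inferInstance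
  have hP5card : Nat.card (P5 : Subgroup ↥(N3 G)) = 5 := by
    obtain ⟨k, hk⟩ := (IsPGroup.iff_card).mp P5.2
    have hdvd : Nat.card (P5 : Subgroup ↥(N3 G)) ∣ 120 := by
      rw [← hcardN]
      exact Subgroup.card_subgroup_dvd_card _
    have h5 : 5 ∣ Nat.card (P5 : Subgroup ↥(N3 G)) :=
      P5.dvd_card_of_dvd_card (by rw [hcardN]; norm_num)
    rw [hk] at hdvd h5 ⊢
    rcases k with _ | _ | k
    · norm_num at h5
    · norm_num
    · exfalso
      have h25 : 5 ^ 2 ∣ 5 ^ (k + 1 + 1) := pow_dvd_pow 5 (by omega)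
      have := dvd_trans h25 hdvd
      norm_num at this
  obtain ⟨Q, hQdef⟩ : ∃ Q : Subgroup G, Q = (P5 : Subgroup ↥(N3 G)).map (N3 G).subtype :=
    ⟨_, rfl⟩
  have hQcard : Nat.card Q = 5 := by
    rw [hQdef, Subgroup.card_map_of_injective (Subgroup.subtype_injective _), hP5card]
  have hQN : Q ≤ N3 G := by
    rw [hQdef]
    exact Subgroup.map_subtype_le _
  have hfrat : Subgroup.normalizer (Q : Set G) ⊔ N3 G = ⊤ := by
    rw [hQdef]
    exact Sylow.normalizer_sup_eq_top P5
  -- an element of order 5 in `Q`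
  obtain ⟨e0, he0⟩ := exists_prime_orderOf_dvd_card' (G := ↥Q) 5 (by rw [hQcard])
  obtain ⟨e, heQ, heord⟩ : ∃ e : G, e ∈ Q ∧ orderOf e = 5 :=
    ⟨(e0 : G), e0.2, by rw [Subgroup.orderOf_coe]; exact he0⟩
  have heN : e ∈ N3 G := hQN heQ
  -- no element of order 3 commutes with `e`
  have hno : ∀ c : G, orderOf c = 3 → e * c ≠ c * e := by
    intro c hc hcomm
    have hcN : c ∈ N3 G := Subgroup.subset_closure hc
    have hc3 : (⟨c, hcN⟩ : ↥(N3 G)) ^ 3 = 1 := by
      apply Subtype.ext
      have := pow_orderOf_eq_one c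
      rw [hc] at this
      simpa using this
    have he5 : (⟨e, heN⟩ : ↥(N3 G)) ^ 5 = 1 := by
      apply Subtype.ext
      have := pow_orderOf_eq_one e
      rw [heord] at this
      simpa using this
    have hcomm' : (⟨c, hcN⟩ : ↥(N3 G)) * ⟨e, heN⟩ = ⟨e, heN⟩ * ⟨c, hcN⟩ := by
      apply Subtype.ext
      simpa using hcomm.symm
    have hfc3 : f ⟨c, hcN⟩ ^ 3 = 1 := by rw [← map_pow, hc3, map_one]
    have hfe5 : f ⟨e, heN⟩ ^ 5 = 1 := by rw [← map_pow, he5, map_one]
    have hfcomm : f ⟨c, hcN⟩ * f ⟨e, heN⟩ = f ⟨e, heN⟩ * f ⟨c, hcN⟩ := by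
      rw [← map_mul, ← map_mul, hcomm']
    have hker2 : ∀ x : ↥(N3 G), f x = 1 → x ^ 2 = 1 := by
      intro x hx
      have hxk : x ∈ f.ker := hx
      have h := pow_card_eq_one' (G := ↥f.ker) (x := ⟨x, hxk⟩)
      rw [hker] at h
      have h' := congrArg (fun t : ↥f.ker => (t : ↥(N3 G))) h
      simpa using h'
    rcases alt5_comm35 _ _ hfc3 hfe5 hfcomm with h | h
    · have h2 := hker2 _ h
      have h1 : (⟨c, hcN⟩ : ↥(N3 G)) = 1 := by
        calc (⟨c, hcN⟩ : ↥(N3 G)) = (⟨c, hcN⟩ : ↥(N3 G)) ^ 3 * ((⟨c, hcN⟩ : ↥(N3 G)) ^ 2)⁻¹ := by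
              group
          _ = 1 := by rw [hc3, h2]; simp
      have hc1 : c = 1 := by
        have := congrArg (fun t : ↥(N3 G) => (t : G)) h1
        simpa using this
      rw [hc1, orderOf_one] at hc
      norm_num at hc
    · have h2 := hker2 _ h
      have h1 : (⟨e, heN⟩ : ↥(N3 G)) = 1 := by
        calc (⟨e, heN⟩ : ↥(N3 G))
            = (⟨e, heN⟩ : ↥(N3 G)) ^ 5 * (((⟨e, heN⟩ : ↥(N3 G)) ^ 2)⁻¹) ^ 2 := by group
          _ = 1 := by rw [he5, h2]; simp
      have he1 : e = 1 := by
        have := congrArg (fun t : ↥(N3 G) => (t : G)) h1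
        simpa using this
      rw [he1, orderOf_one] at heord
      norm_num at heord
  -- `C_G(Q)` is solvable
  haveI hCsolv : Group.IsSolvable ↥(Subgroup.centralizer (Q : Set G)) := by
    apply isSolvable_of_no_perfect
    intro K hK
    by_contra hne
    haveI : Nontrivial ↥K := (Subgroup.nontrivial_iff_ne_bot K).mpr hne
    have hKfpf : IsFpfLin ↥K := isFpfLin_subgroup (isFpfLin_subgroup hfpf _) K
    obtain ⟨g, hg⟩ := hFinA ↥K hKfpf (perfect_of_commutator_eq K hK) inferInstance
    have hg' : orderOf (((g : ↥(Subgroup.centralizer (Q : Set G))) : G)) = 3 := by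
      rw [Subgroup.orderOf_coe, Subgroup.orderOf_coe]
      exact hg
    have hmem := (g : ↥(Subgroup.centralizer (Q : Set G))).2
    rw [Subgroup.mem_centralizer_iff] at hmem
    exact hno _ hg' (hmem e heQ)
  -- `Aut(Q)` is commutative
  haveI hQcyc : IsCyclic ↥Q := isCyclic_of_prime_card (p := 5) hQcard
  haveI hAutSolv : Group.IsSolvable (MulAut ↥Q) := by
    apply Group.isSolvable_of_comm
    intro a b
    ext x
    obtain ⟨m, hm⟩ := MonoidHom.map_cyclic (a : ↥Q →* ↥Q)
    obtain ⟨n, hn⟩ := MonoidHom.map_cyclic (b : ↥Q →* ↥Q)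
    have ha : ∀ y : ↥Q, a y = y ^ m := hm
    have hb : ∀ y : ↥Q, b y = y ^ n := hn
    rw [MulAut.mul_apply, MulAut.mul_apply, ha, hb, ha, hb, ← zpow_mul, ← zpow_mul, mul_comm]
  -- `N_G(Q)` is solvable
  have hCN : Subgroup.centralizer (Q : Set G) ≤ Subgroup.normalizer (Q : Set G) :=
    Subgroup.centralizer_le_normalizer (Q : Set G)
  haveI hNsolv : Group.IsSolvable ↥(Subgroup.normalizer (Q : Set G)) := by
    haveI : Group.IsSolvable ↥((Subgroup.centralizer (Q : Set G)).subgroupOf
        (Subgroup.normalizer (Q : Set G))) :=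
      Group.isSolvable_of_isSolvable_injective
        (f := (Subgroup.subgroupOfEquivOfLe hCN).toMonoidHom)
        (Subgroup.subgroupOfEquivOfLe hCN).injective
    exact Group.isSolvable_of_ker_le_range
      (((Subgroup.centralizer (Q : Set G)).subgroupOf (Subgroup.normalizer (Q : Set G))).subtype)
      (Q.normalizerMonoidHom)
      (by rw [Subgroup.normalizerMonoidHom_ker, Subgroup.range_subtype])
  -- `G ⧸ N3 G` is solvable
  haveI hQsolv : Group.IsSolvable (G ⧸ N3 G) := by
    apply Group.isSolvable_of_surjective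
      (f := (QuotientGroup.mk' (N3 G)).comp (Subgroup.normalizer (Q : Set G)).subtype)
    intro x
    obtain ⟨g, rfl⟩ := QuotientGroup.mk_surjective x
    have hg : g ∈ (↑(Subgroup.normalizer (Q : Set G) ⊔ N3 G) : Set G) := by
      rw [hfrat]
      exact Set.mem_univ g
    rw [Subgroup.mul_normal] at hg
    obtain ⟨a, ha, b, hb, rfl⟩ := Set.mem_mul.mp hg
    exact ⟨⟨a, ha⟩, (QuotientGroup.mk_mul_of_mem a hb).symm⟩
  -- perfect and solvable
  have hc : commutator (G ⧸ N3 G) = ⊤ := by
    rw [commutator_def, ← Subgroup.map_top_of_surjective (QuotientGroup.mk' (N3 G))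
      (QuotientGroup.mk'_surjective _), ← Subgroup.map_commutator, ← commutator_def, hperf]
  have hperfQ : ∀ n, derivedSeries (G ⧸ N3 G) n = ⊤ := by
    intro n
    induction n with
    | zero => rfl
    | succ n ih => rw [derivedSeries_succ, ih, ← commutator_def, hc]
  obtain ⟨n, hn⟩ := hQsolv.solvable
  rw [hperfQ n] at hn
  apply QuotientGroup.subgroup_eq_top_of_subsingleton
  exact Subgroup.subsingleton_iff.mp (subsingleton_iff_bot_eq_top.mp hn.symm)

end Cfsg.Agent.Lib.Helper20.Zass
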